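-- Thompson A×B for nilpotent groups; involutions acting on groups of prime order (helper61).
import Mathlib
import Cfsg.Agent.Lib.Helper48.Generation
import Cfsg.Agent.Lib.Helper49.CharP
import Cfsg.Agent.Lib.Helper21.AxB
import Cfsg.Agent.Lib.Helper61.CoresInt

set_option autoImplicit false

namespace Cfsg.Agent.Lib.Helper61

variable {S : Type*} [Group S]

/-- Thompson `A × B` for a nilpotent group `F`: if `x` normalizes `F`, has order prime to `p`,
centralizes the `p`-subgroup `P` of `F` and centralizes `C_F(P)`, then `x` centralizes `F`. -/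
theorem commute_of_commute_centralizer_nilpotent [Finite S] {p : ℕ} [Fact p.Prime]
    (F P : Subgroup S) (hF : Group.IsNilpotent F) (hPF : P ≤ F) (hP : IsPGroup p P) (x : S)
    (hx : x ∈ Subgroup.normalizer (F : Set S)) (hxo : (orderOf x).Coprime p)
    (hxP : ∀ b ∈ P, Commute x b)
    (hxC : ∀ u ∈ F, (∀ b ∈ P, Commute u b) → Commute x u) : ∀ u ∈ F, Commute x u := by
  have hp : p.Prime := Fact.out
  have hle : F ≤ Subgroup.centralizer ({x} : Set S) := by
    apply Cfsg.Agent.Lib.Helper48.le_of_forall_sylow_le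
    intro r hr
    have : Fact r.Prime := ⟨hr⟩
    obtain ⟨R⟩ : Nonempty (Sylow r F) := inferInstance
    refine ⟨R, ?_⟩
    have hRn : (R : Subgroup F).Normal :=
      Sylow.normal_of_normalizerCondition Group.normalizerCondition_of_isNilpotent R
    by_cases hrp : r = p
    · subst hrp
      have hRc : (R : Subgroup F).Characteristic := Sylow.characteristic_of_normal R hRn
      have hxR : x ∈ Subgroup.normalizer ((((R : Subgroup F).map F.subtype : Subgroup S)) : Set S) :=
        normalizer_le_normalizer_map_of_characteristic F _ hRc hx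
      have hFR : F ≤ Subgroup.normalizer ((((R : Subgroup F).map F.subtype : Subgroup S)) : Set S) :=
        le_normalizer_map_of_normal F _ hRn
      have hRp : IsPGroup r ((R : Subgroup F).map F.subtype) := R.2.map _
      have key := Cfsg.Agent.Lib.Helper49.thompson_AxB ((R : Subgroup F).map F.subtype) P hRp hP
        (hPF.trans hFR) x hxR hxo hxP
        (fun u hu hub => hxC u (Subgroup.map_subtype_le _ hu) hub)
      intro u hu
      rw [Subgroup.mem_centralizer_iff]
      intro h hh
      rw [Set.mem_singleton_iff] at hh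
      subst hh
      exact (key u hu).eq
    · rintro _ ⟨u, hu, rfl⟩
      rw [Subgroup.mem_centralizer_iff]
      intro h hh
      rw [Set.mem_singleton_iff] at hh
      subst hh
      apply (hxC (u : S) u.2 ?_).eq
      intro b hb
      have huo : ∃ k : ℕ, orderOf u = r ^ k := by
        obtain ⟨k, hk⟩ := (IsPGroup.iff_orderOf.mp R.2) ⟨u, hu⟩
        refine ⟨k, ?_⟩
        rw [← hk]
        exact Subgroup.orderOf_coe (⟨u, hu⟩ : (R : Subgroup F))
      have hbo : ∃ k : ℕ, orderOf (⟨b, hPF hb⟩ : F) = p ^ k := by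
        obtain ⟨k, hk⟩ := (IsPGroup.iff_orderOf.mp hP) ⟨b, hb⟩
        refine ⟨k, ?_⟩
        rw [← hk]
        rw [← Subgroup.orderOf_coe (⟨b, hPF hb⟩ : F), ← Subgroup.orderOf_coe (⟨b, hb⟩ : P)]
      obtain ⟨k1, hk1⟩ := huo
      obtain ⟨k2, hk2⟩ := hbo
      have hcop : (orderOf u).Coprime (orderOf (⟨b, hPF hb⟩ : F)) := by
        rw [hk1, hk2]
        exact Nat.Coprime.pow _ _ ((Nat.coprime_primes hr hp).mpr hrp)
      have hc := Cfsg.Agent.Lib.Helper21.commute_of_coprime_of_isNilpotent F u ⟨b, hPF hb⟩ hcop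
      exact congrArg Subtype.val hc.eq
  intro u hu
  have := hle hu
  rw [Subgroup.mem_centralizer_iff] at this
  exact (this x rfl)

/-- An element `g` with `g ^ 2 = 1` normalizing a cyclic group of prime order centralizes or
inverts it. -/
theorem conj_eq_or_eq_inv_of_sq (g w : S) (hg : g ^ 2 = 1) {p : ℕ} (hp : p.Prime)
    (hw : orderOf w = p) (hgw : g * w * g⁻¹ ∈ Subgroup.zpowers w) :
    g * w * g⁻¹ = w ∨ g * w * g⁻¹ = w⁻¹ := by
  obtain ⟨e, he⟩ := Subgroup.mem_zpowers_iff.mp hgw
  have hginv : g⁻¹ = g := by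
    rw [inv_eq_iff_mul_eq_one, ← pow_two]; exact hg
  have h1 : g * (g * w * g⁻¹) * g⁻¹ = w := by
    rw [hginv]
    have h2 : g * g = 1 := by rw [← pow_two]; exact hg
    calc g * (g * w * g) * g = (g * g) * w * (g * g) := by group
      _ = w := by rw [h2]; group
  have h3 : w ^ (e * e) = w := by
    calc w ^ (e * e) = (w ^ e) ^ e := by rw [zpow_mul]
      _ = (g * w * g⁻¹) ^ e := by rw [he]
      _ = g * w ^ e * g⁻¹ := conj_zpow
      _ = g * (g * w * g⁻¹) * g⁻¹ := by rw [he]
      _ = w := h1
  have h4 : w ^ (e * e - 1) = 1 := by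
    rw [zpow_sub, zpow_one, h3, mul_inv_cancel]
  have h5 : (p : ℤ) ∣ (e - 1) * (e + 1) := by
    have h6 := (orderOf_dvd_iff_zpow_eq_one).mpr h4
    rw [hw] at h6
    have h7 : (e - 1) * (e + 1) = e * e - 1 := by ring
    rw [h7]; exact h6
  have hpi : Prime (p : ℤ) := Nat.prime_iff_prime_int.mp hp
  rcases hpi.dvd_or_dvd h5 with h | h
  · left
    rw [← hw] at h
    have h8 := (orderOf_dvd_iff_zpow_eq_one).mp h
    rw [← he]
    have : w ^ e = w ^ (e - 1) * w := by rw [zpow_sub_one, inv_mul_cancel_right]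
    rw [this, h8, one_mul]
  · right
    rw [← hw] at h
    have h8 := (orderOf_dvd_iff_zpow_eq_one).mp h
    rw [← he]
    have : w ^ e = w ^ (e + 1) * w⁻¹ := by rw [zpow_add_one, mul_inv_cancel_right]
    rw [this, h8, one_mul]

end Cfsg.Agent.Lib.Helper61
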